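import Cfsg.Agent.H355.PQ.Defs
import Cfsg.Agent.H950.Count

/-!
# The numbers of the subspaces grow (S4612, [PSL-D1c]; helper29)
-/

set_option autoImplicit false

open Cfsg Module

namespace Cfsg.Agent.H29.PQL

open Cfsg.Agent.H355.PQ

universe u v

/-- `∏_{0<i≤N} (q^i - 1)` -/
def fac (q N : ℕ) : ℕ := ∏ i ∈ Finset.range N, (q ^ (i + 1) - 1)

theorem fac_succ (q N : ℕ) : fac q (N + 1) = fac q N * (q ^ (N + 1) - 1) := Finset.prod_range_succ _ _

theorem fac_pos {q : ℕ} (hq : 1 < q) (N : ℕ) : 0 < fac q N := by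
  apply Finset.prod_pos
  intro i _
  have : 1 < q ^ (i + 1) := Nat.one_lt_pow (by omega) hq
  omega

theorem fall_mul (q : ℕ) {N l : ℕ} (hl : l ≤ N) : (∏ j : Fin l, (q ^ (N - j.val) - 1)) * fac q (N - l) = fac q N := by
  rw [Fin.prod_univ_eq_prod_range (fun j => q ^ (N - j) - 1) l]
  induction l with
  | zero => simp
  | succ l ih =>
    rw [Finset.prod_range_succ, ← ih (by omega)]
    obtain ⟨k, hk⟩ : ∃ k, N - l = k + 1 := ⟨N - l - 1, by omega⟩
    have h1 : N - (l + 1) = k := by omega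
    rw [h1, hk, fac_succ]
    ring

variable {F : Type u} [Field F] [Finite F] {V : Type v} [AddCommGroup V] [Module F V] [FiniteDimensional F V]

theorem card_Gr_mul {k : ℕ} (hk : k ≤ finrank F V) :
    Nat.card (Gr F V k) * fac (Nat.card F) k * fac (Nat.card F) (finrank F V - k) = fac (Nat.card F) (finrank F V) := by
  have : Fintype F := Fintype.ofFinite F
  rw [Nat.card_eq_fintype_card (α := F)]
  have h1 := H950.card_subspaces_eq (F := F) (V := V) rfl hk rfl
  have h2 := fall_mul (Fintype.card F) (le_refl k)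
  rw [Nat.sub_self] at h2
  have h3 : fac (Fintype.card F) 0 = 1 := rfl
  rw [h3, mul_one] at h2
  rw [h2] at h1
  rw [show Nat.card (Gr F V k) = Nat.card {W : Submodule F V // finrank F W = k} from rfl, h1,
    fall_mul (Fintype.card F) hk]

theorem card_Gr_succ {k : ℕ} (hk : k + 1 ≤ finrank F V) :
    Nat.card (Gr F V (k + 1)) * (Nat.card F ^ (k + 1) - 1) =
      Nat.card (Gr F V k) * (Nat.card F ^ (finrank F V - k) - 1) := by
  have hq : 1 < Nat.card F := Finite.one_lt_card
  have h1 := card_Gr_mul (F := F) (V := V) (k := k) (by omega)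
  have h2 := card_Gr_mul (F := F) (V := V) (k := k + 1) hk
  obtain ⟨l, hl⟩ : ∃ l, finrank F V - k = l + 1 := ⟨finrank F V - k - 1, by omega⟩
  have hl' : finrank F V - (k + 1) = l := by omega
  rw [hl, fac_succ, ← h2, hl', fac_succ] at h1
  rw [hl]
  have h3 : 0 < fac (Nat.card F) k * fac (Nat.card F) l := Nat.mul_pos (fac_pos hq _) (fac_pos hq _)
  refine Nat.eq_of_mul_eq_mul_right h3 ?_
  linarith [h1]

/-- **D1c** -/
theorem card_Gr_lt {k : ℕ} (hk : 2 * (k + 1) ≤ finrank F V) :
    Nat.card (Gr F V k) < Nat.card (Gr F V (k + 1)) := by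
  have hq : 1 < Nat.card F := Finite.one_lt_card
  have h1 := card_Gr_succ (F := F) (V := V) (k := k) (by omega)
  have h0 : 0 < Nat.card (Gr F V k) := by
    have h := card_Gr_mul (F := F) (V := V) (k := k) (by omega)
    have h' := fac_pos hq (finrank F V)
    rw [← h] at h'
    exact Nat.pos_of_ne_zero fun h0 => by rw [h0] at h'; simp at h'
  have h2 : Nat.card F ^ (k + 1) < Nat.card F ^ (finrank F V - k) := Nat.pow_lt_pow_right hq (by omega)
  have h3 : 1 < Nat.card F ^ (k + 1) := Nat.one_lt_pow (by omega) hq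
  by_contra h4
  rw [not_lt] at h4
  have h5 : Nat.card (Gr F V (k + 1)) * (Nat.card F ^ (k + 1) - 1) ≤ Nat.card (Gr F V k) * (Nat.card F ^ (k + 1) - 1) :=
    Nat.mul_le_mul_right _ h4
  rw [h1] at h5
  have h6 := Nat.le_of_mul_le_mul_left h5 h0
  omega

end Cfsg.Agent.H29.PQL
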